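import Mathlib

/-!
# Project ZASS (S0690): lifting points (subgroups of order 3) through a central extension

Generic lemmas shared by the packages [STR24] and [STR120]:
* counting subgroups of order 3 through their generators;
* a surjective hom `f : H →* K` with kernel of order 2, `H` having at most one involution:
  elements of order 3 correspond bijectively, even subgroups contain the kernel;
* transfer between subgroups of `G` inside `L` and subgroups of `↥L`.
-/

set_option autoImplicit false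
set_option linter.unusedSectionVars false

namespace Cfsg.Agent.Lib.Helper43.Zass

open Subgroup

section generic

variable {H : Type*} [Group H]

theorem mem_zpowers_order3 {b c : H} (ob : orderOf b = 3) (hc : c ∈ zpowers b) :
    c = 1 ∨ c = b ∨ c = b⁻¹ := by
  obtain ⟨k, rfl⟩ := Subgroup.mem_zpowers_iff.mp hc
  have hb3 : b ^ 3 = 1 := by rw [← ob]; exact pow_orderOf_eq_one b
  have hmod : b ^ k = b ^ (k % 3) := by
    have := zpow_mod_orderOf b k
    rw [ob] at this
    exact_mod_cast this.symm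
  have h0 : 0 ≤ k % 3 := Int.emod_nonneg _ (by norm_num)
  have h3 : k % 3 < 3 := Int.emod_lt_of_pos _ (by norm_num)
  rw [hmod]
  obtain h | h | h : k % 3 = 0 ∨ k % 3 = 1 ∨ k % 3 = 2 := by omega
  · left; rw [h]; simp
  · right; left; rw [h]; simp
  · right; right; rw [h]
    have h2 : b ^ (2 : ℤ) * b = 1 := by
      have : b ^ (2 : ℤ) = b * b := by rw [zpow_ofNat, pow_two]
      rw [this, ← hb3, pow_succ, pow_two]
    exact eq_inv_of_mul_eq_one_left h2

theorem not_mem_zpowers_order3 {b c : H} (ob : orderOf b = 3) (oc : orderOf c = 3)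
    (h1 : c ≠ b) (h2 : c ≠ b⁻¹) : c ∉ zpowers b := by
  intro h
  rcases mem_zpowers_order3 ob h with h | h | h
  · rw [h] at oc; simp at oc
  · exact h1 h
  · exact h2 h

theorem exists_gen_of_card3 [Finite H] (P : Subgroup H) (hP : Nat.card P = 3) :
    ∃ a : H, orderOf a = 3 ∧ P = zpowers a := by
  have hne : P ≠ ⊥ := by
    rintro rfl
    simp at hP
  obtain ⟨⟨a, haP⟩, ha1⟩ := (Subgroup.ne_bot_iff_exists_ne_one).mp hne
  have ha1' : a ≠ 1 := fun h => ha1 (Subtype.ext h)
  have ho : orderOf a = 3 := by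
    have hd : orderOf a ∣ 3 := hP ▸ Subgroup.orderOf_dvd_natCard _ haP
    rcases (Nat.dvd_prime Nat.prime_three).mp hd with h | h
    · exact absurd (orderOf_eq_one_iff.mp h) ha1'
    · exact h
  refine ⟨a, ho, ?_⟩
  symm
  apply Subgroup.eq_of_le_of_card_ge (zpowers_le.mpr haP)
  rw [Nat.card_zpowers, ho, hP]

theorem card_zpowers_order3 {a : H} (oa : orderOf a = 3) : Nat.card (zpowers a) = 3 := by
  rw [Nat.card_zpowers, oa]

/-- counting subgroups of order 3 through their generators. -/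
theorem two_mul_ncard_card3 [Finite H] (φ : Subgroup H → Prop) :
    2 * Set.ncard {Q : Subgroup H | Nat.card Q = 3 ∧ φ Q} =
      Set.ncard {a : H | orderOf a = 3 ∧ φ (zpowers a)} := by
  classical
  set S : Set (Subgroup H) := {Q : Subgroup H | Nat.card Q = 3 ∧ φ Q} with hS
  have hgen : ∀ Q : Subgroup H, ∃ a : H, Q ∈ S → (orderOf a = 3 ∧ Q = zpowers a) := by
    intro Q
    by_cases hQ : Q ∈ S
    · obtain ⟨a, ha, hQa⟩ := exists_gen_of_card3 Q hQ.1
      exact ⟨a, fun _ => ⟨ha, hQa⟩⟩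
    · exact ⟨1, fun h => absurd h hQ⟩
  choose γ hγ using hgen
  have hinj1 : Set.InjOn γ S := by
    intro Q hQ Q' hQ' h
    rw [(hγ Q hQ).2, (hγ Q' hQ').2, h]
  have hinj2 : Set.InjOn (fun Q => (γ Q)⁻¹) S := by
    intro Q hQ Q' hQ' h
    have : γ Q = γ Q' := inv_injective h
    exact hinj1 hQ hQ' this
  have hunion : {a : H | orderOf a = 3 ∧ φ (zpowers a)} =
      γ '' S ∪ (fun Q => (γ Q)⁻¹) '' S := by
    ext a
    constructor
    · rintro ⟨ha, hφ⟩
      have hQ : zpowers a ∈ S := ⟨by rw [Nat.card_zpowers, ha], hφ⟩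
      obtain ⟨hg, hz⟩ := hγ _ hQ
      have ha' : a ∈ zpowers (γ (zpowers a)) := by rw [← hz]; exact mem_zpowers a
      rcases mem_zpowers_order3 hg ha' with h | h | h
      · rw [h] at ha; simp at ha
      · left; exact ⟨_, hQ, h.symm⟩
      · right; exact ⟨_, hQ, h.symm⟩
    · rintro (⟨Q, hQ, rfl⟩ | ⟨Q, hQ, rfl⟩)
      · obtain ⟨hg, hz⟩ := hγ _ hQ
        exact ⟨hg, by rw [← hz]; exact hQ.2⟩
      · obtain ⟨hg, hz⟩ := hγ _ hQ
        refine ⟨by rw [orderOf_inv]; exact hg, ?_⟩
        show φ (zpowers (γ Q)⁻¹)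
        rw [zpowers_inv, ← hz]; exact hQ.2
  have hdisj : Disjoint (γ '' S) ((fun Q => (γ Q)⁻¹) '' S) := by
    rw [Set.disjoint_left]
    rintro a ⟨Q, hQ, rfl⟩ ⟨Q', hQ', h⟩
    obtain ⟨hg, hz⟩ := hγ _ hQ
    obtain ⟨hg', hz'⟩ := hγ _ hQ'
    have h' : (γ Q')⁻¹ = γ Q := h
    have hQQ : Q = Q' := by
      rw [hz, hz', ← h', zpowers_inv]
    subst hQQ
    have h2 : (γ Q) ^ 2 = 1 := by
      rw [pow_two]; nth_rewrite 1 [← h']; simp
    have hd := orderOf_dvd_of_pow_eq_one h2
    rw [hg] at hd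
    exact absurd (Nat.le_of_dvd (by norm_num) hd) (by norm_num)
  rw [hunion, Set.ncard_union_eq hdisj (Set.toFinite _) (Set.toFinite _),
    Set.ncard_image_of_injOn hinj1, Set.ncard_image_of_injOn hinj2]
  ring

/-- a subgroup containing two elements of order 3 that are neither equal nor inverse
has neither order 3 nor order 6. -/
theorem card_ne_of_two_order3 [Finite H] (B : Subgroup H) {b c : H} (hb : b ∈ B) (hc : c ∈ B)
    (ob : orderOf b = 3) (oc : orderOf c = 3) (h1 : c ≠ b) (h2 : c ≠ b⁻¹) :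
    Nat.card B ≠ 3 ∧ Nat.card B ≠ 6 := by
  have key : c ∉ zpowers b := not_mem_zpowers_order3 ob oc h1 h2
  have hle : zpowers b ≤ B := zpowers_le.mpr hb
  constructor
  · intro h3
    have : zpowers b = B := by
      apply Subgroup.eq_of_le_of_card_ge hle
      rw [Nat.card_zpowers, ob, h3]
    exact key (this ▸ hc)
  · intro h6
    set P1 : Subgroup B := (zpowers b).subgroupOf B with hP1
    have hc1 : Nat.card P1 = 3 := by
      rw [← card_zpowers_order3 ob]
      exact Nat.card_congr (Subgroup.subgroupOfEquivOfLe hle).toEquiv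
    have hidx : P1.index = 2 := by
      have := P1.card_mul_index
      rw [hc1, h6] at this
      omega
    haveI : P1.Normal := Subgroup.normal_of_index_eq_two hidx
    have hq2 : ((⟨c, hc⟩ : B) : B ⧸ P1) ^ 2 = 1 := by
      have h := pow_card_eq_one' (G := B ⧸ P1) (x := ((⟨c, hc⟩ : B) : B ⧸ P1))
      rwa [← Subgroup.index_eq_card, hidx] at h
    have hq3 : ((⟨c, hc⟩ : B) : B ⧸ P1) ^ 3 = 1 := by
      have hc3 : (⟨c, hc⟩ : B) ^ 3 = 1 := by
        apply Subtype.ext
        simp only [Subgroup.coe_pow, Subgroup.coe_one]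
        rw [← oc]; exact pow_orderOf_eq_one c
      rw [← QuotientGroup.mk_pow, hc3]; rfl
    have hq1 : ((⟨c, hc⟩ : B) : B ⧸ P1) = 1 := by
      have h := hq3
      rw [pow_succ, hq2, one_mul] at h
      exact h
    have hmem : (⟨c, hc⟩ : B) ∈ P1 := (QuotientGroup.eq_one_iff _).mp hq1
    exact key (Subgroup.mem_subgroupOf.mp hmem)

end generic

section lift

variable {H K : Type*} [Group H] [Group K] [Finite H] (f : H →* K)

/-- the involution spanning the kernel. -/
theorem exists_kernel_involution (hker : Nat.card f.ker = 2)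
    (hUI : ∀ s t : H, orderOf s = 2 → orderOf t = 2 → s = t) :
    ∃ z : H, orderOf z = 2 ∧ (∀ x, f x = 1 ↔ (x = 1 ∨ x = z)) ∧ (∀ x, x * z = z * x) ∧
      ∀ A : Subgroup H, 2 ∣ Nat.card A → f.ker ≤ A := by
  have hne : f.ker ≠ ⊥ := by
    intro h
    rw [h] at hker
    simp at hker
  obtain ⟨⟨z, hz⟩, hz1⟩ := (Subgroup.ne_bot_iff_exists_ne_one).mp hne
  have hz1' : z ≠ 1 := fun h => hz1 (Subtype.ext h)
  have hzo : orderOf z = 2 := by
    have hd : orderOf z ∣ 2 := hker ▸ Subgroup.orderOf_dvd_natCard _ hz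
    rcases (Nat.dvd_prime Nat.prime_two).mp hd with h | h
    · exact absurd (orderOf_eq_one_iff.mp h) hz1'
    · exact h
  have hkerel : ∀ x, f x = 1 → x = 1 ∨ x = z := by
    intro x hx
    by_cases hx1 : x = 1
    · left; exact hx1
    · right
      have hd : orderOf x ∣ 2 := hker ▸ Subgroup.orderOf_dvd_natCard _ (f.mem_ker.mpr hx)
      rcases (Nat.dvd_prime Nat.prime_two).mp hd with h | h
      · exact absurd (orderOf_eq_one_iff.mp h) hx1
      · exact hUI x z h hzo
  have hz2 : z * z = 1 := by rw [← pow_two, ← hzo]; exact pow_orderOf_eq_one z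
  refine ⟨z, hzo, ?_, ?_, ?_⟩
  · intro x
    constructor
    · exact hkerel x
    · rintro (rfl | rfl)
      · exact map_one f
      · exact f.mem_ker.mp hz
  · intro x
    have hs2 : (x * z * x⁻¹) ^ 2 = 1 := by
      rw [pow_two]
      calc x * z * x⁻¹ * (x * z * x⁻¹) = x * (z * z) * x⁻¹ := by group
        _ = 1 := by rw [hz2]; group
    have hs1 : x * z * x⁻¹ ≠ 1 := by
      intro h
      apply hz1'
      have : z = x⁻¹ * (x * z * x⁻¹) * x := by group
      rw [this, h]; group
    have hso : orderOf (x * z * x⁻¹) = 2 := orderOf_eq_prime hs2 hs1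
    have h := hUI _ _ hso hzo
    calc x * z = (x * z * x⁻¹) * x := by group
      _ = z * x := by rw [h]
  · intro A h2
    obtain ⟨y, hy⟩ := exists_prime_orderOf_dvd_card' (G := A) 2 h2
    have hy' : orderOf (y : H) = 2 := by rw [Subgroup.orderOf_coe]; exact hy
    have hyz : (y : H) = z := hUI _ _ hy' hzo
    intro x hx
    rcases hkerel x (f.mem_ker.mp hx) with rfl | rfl
    · exact A.one_mem
    · rw [← hyz]; exact y.2

theorem card_eq_two_mul_card_map (hker : Nat.card f.ker = 2) (A : Subgroup H)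
    (hA : f.ker ≤ A) : Nat.card A = 2 * Nat.card (A.map f) := by
  have h1 : f.ker.relIndex A = Nat.card (A.map f) := Subgroup.relIndex_ker A f
  have h2 : Nat.card (f.ker.subgroupOf A) * (f.ker.subgroupOf A).index = Nat.card A :=
    Subgroup.card_mul_index _
  have h3 : Nat.card (f.ker.subgroupOf A) = Nat.card f.ker :=
    Nat.card_congr (Subgroup.subgroupOfEquivOfLe hA).toEquiv
  rw [← h2, h3, hker, ← h1]
  rfl

theorem mem_iff_map_mem (A : Subgroup H) (hA : f.ker ≤ A) (a : H) :
    a ∈ A ↔ f a ∈ A.map f := by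
  constructor
  · intro h; exact Subgroup.mem_map_of_mem f h
  · intro h
    have : a ∈ (A.map f).comap f := h
    rwa [Subgroup.comap_map_eq_self hA] at this

variable {f}

theorem orderOf_map_order3 {z : H} (hz : orderOf z = 2)
    (hk : ∀ x, f x = 1 ↔ (x = 1 ∨ x = z)) {a : H} (oa : orderOf a = 3) :
    orderOf (f a) = 3 := by
  have hd : orderOf (f a) ∣ 3 := oa ▸ orderOf_map_dvd f a
  rcases (Nat.dvd_prime Nat.prime_three).mp hd with h | h
  · exfalso
    rcases (hk a).mp (orderOf_eq_one_iff.mp h) with rfl | rfl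
    · simp at oa
    · omega
  · exact h

theorem inj_order3 {z : H} (hz : orderOf z = 2)
    (hk : ∀ x, f x = 1 ↔ (x = 1 ∨ x = z)) (hc : ∀ x, x * z = z * x) {a a' : H}
    (oa : orderOf a = 3) (oa' : orderOf a' = 3) (h : f a = f a') : a = a' := by
  have h1 : f (a⁻¹ * a') = 1 := by rw [map_mul, map_inv, h, inv_mul_cancel]
  rcases (hk _).mp h1 with h2 | h2
  · exact inv_mul_eq_one.mp h2
  · exfalso
    have ha' : a' = a * z := by rw [← h2]; group
    have hz2 : z ^ 2 = 1 := by rw [← hz]; exact pow_orderOf_eq_one z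
    have ha3 : a ^ 3 = 1 := by rw [← oa]; exact pow_orderOf_eq_one a
    have ha'3 : a' ^ 3 = 1 := by rw [← oa']; exact pow_orderOf_eq_one a'
    have h3 : a' ^ 3 = z := by
      rw [ha', Commute.mul_pow (hc a), ha3, one_mul, pow_succ, hz2, one_mul]
    rw [ha'3] at h3
    rw [← h3] at hz
    simp at hz

theorem surj_order3 (hf : Function.Surjective f) {z : H} (hz : orderOf z = 2)
    (hk : ∀ x, f x = 1 ↔ (x = 1 ∨ x = z)) {b : K} (ob : orderOf b = 3) :
    ∃ a : H, orderOf a = 3 ∧ f a = b := by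
  obtain ⟨a0, rfl⟩ := hf b
  have hb3 : (f a0) ^ 3 = 1 := by rw [← ob]; exact pow_orderOf_eq_one _
  have h1 : f (a0 ^ 3) = 1 := by rw [map_pow]; exact hb3
  have hz2 : z ^ 2 = 1 := by rw [← hz]; exact pow_orderOf_eq_one z
  have hb4 : f a0 ^ 4 = f a0 := by
    calc f a0 ^ 4 = f a0 ^ 3 * f a0 := pow_succ _ 3
      _ = f a0 := by rw [hb3, one_mul]
  refine ⟨a0 ^ 4, ?_, ?_⟩
  · apply orderOf_eq_prime
    · have e : (a0 ^ 4) ^ 3 = (a0 ^ 3) ^ 4 := by rw [← pow_mul, ← pow_mul]
      rw [e]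
      rcases (hk _).mp h1 with h | h
      · rw [h]; simp
      · rw [h]
        have e2 : z ^ 4 = (z ^ 2) ^ 2 := by rw [← pow_mul]
        rw [e2, hz2]; simp
    · intro h
      have h4 : f a0 ^ 4 = 1 := by rw [← map_pow, h, map_one]
      rw [hb4] at h4
      rw [h4] at ob
      simp at ob
  · rw [map_pow]; exact hb4

/-- counting points through the elements of order 3 of the quotient. -/
theorem two_mul_ncard_eq (hf : Function.Surjective f) {z : H} (hz : orderOf z = 2)
    (hk : ∀ x, f x = 1 ↔ (x = 1 ∨ x = z)) (hc : ∀ x, x * z = z * x)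
    (φ : Subgroup H → Prop) (ψ : K → Prop)
    (hψ : ∀ a : H, orderOf a = 3 → (φ (zpowers a) ↔ ψ (f a))) :
    2 * Set.ncard {Q : Subgroup H | Nat.card Q = 3 ∧ φ Q} =
      Set.ncard {b : K | orderOf b = 3 ∧ ψ b} := by
  rw [two_mul_ncard_card3]
  have himg : {b : K | orderOf b = 3 ∧ ψ b} = f '' {a : H | orderOf a = 3 ∧ φ (zpowers a)} := by
    ext b
    constructor
    · rintro ⟨ob, hb⟩
      obtain ⟨a, oa, rfl⟩ := surj_order3 hf hz hk ob
      exact ⟨a, ⟨oa, (hψ a oa).mpr hb⟩, rfl⟩
    · rintro ⟨a, ⟨oa, ha⟩, rfl⟩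
      exact ⟨orderOf_map_order3 hz hk oa, (hψ a oa).mp ha⟩
  rw [himg, Set.ncard_image_of_injOn]
  intro a ha a' ha' h
  exact inj_order3 hz hk hc ha.1 ha'.1 h

theorem map_sup_zpowers (f : H →* K) (x a : H) :
    (zpowers x ⊔ zpowers a).map f = zpowers (f x) ⊔ zpowers (f a) := by
  rw [Subgroup.map_sup, MonoidHom.map_zpowers, MonoidHom.map_zpowers]

end lift

section transfer

variable {G : Type*} [Group G] (L : Subgroup G)

/-- subgroups of order 3 of `G` inside `L` versus subgroups of order 3 of `↥L`. -/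
theorem ncard_le_transfer (φ : Subgroup G → Prop) :
    Set.ncard {P : Subgroup G | Nat.card P = 3 ∧ P ≤ L ∧ φ P} =
      Set.ncard {P' : Subgroup L | Nat.card P' = 3 ∧ φ (P'.map L.subtype)} := by
  rw [← Set.ncard_image_of_injective _ (Subgroup.map_injective L.subtype_injective)]
  congr 1
  ext P
  constructor
  · rintro ⟨h3, hle, hφ⟩
    refine ⟨P.subgroupOf L, ⟨?_, ?_⟩, Subgroup.map_subgroupOf_eq_of_le hle⟩
    · rw [← h3]; exact Nat.card_congr (Subgroup.subgroupOfEquivOfLe hle).toEquiv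
    · rw [Subgroup.map_subgroupOf_eq_of_le hle]; exact hφ
  · rintro ⟨P', ⟨h3, hφ⟩, rfl⟩
    refine ⟨?_, Subgroup.map_subtype_le P', hφ⟩
    rw [← h3]; exact Subgroup.card_map_of_injective L.subtype_injective

theorem card_map_subtype (A : Subgroup L) : Nat.card (A.map L.subtype) = Nat.card A :=
  Subgroup.card_map_of_injective L.subtype_injective

theorem exists_sub_of_le {P : Subgroup G} (hle : P ≤ L) :
    ∃ P' : Subgroup L, P'.map L.subtype = P ∧ Nat.card P' = Nat.card P :=
  ⟨P.subgroupOf L, Subgroup.map_subgroupOf_eq_of_le hle,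
    Nat.card_congr (Subgroup.subgroupOfEquivOfLe hle).toEquiv⟩

theorem map_subtype_top' : (⊤ : Subgroup L).map L.subtype = L := by
  rw [← MonoidHom.range_eq_map, Subgroup.range_subtype]

end transfer

end Cfsg.Agent.Lib.Helper43.Zass
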