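import Mathlib
import Cfsg.Agent.Lib.Helper51.Zass.Defs
import Cfsg.Agent.Lib.Helper43.Zass.Lift

/-!
# Project ZASS (S0690): package [STR24]

A line (central extension of `A₄` by a group of order 2 in a group with at most one
involution) has exactly 4 points, and any two of them generate it.
-/

set_option autoImplicit false

namespace Cfsg.Agent.Lib.Helper43.Zass

open Subgroup

universe u

theorem card_alt4 : Nat.card (alternatingGroup (Fin 4)) = 12 := by
  have h := two_mul_nat_card_alternatingGroup (α := Fin 4)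
  rw [Nat.card_perm, Nat.card_eq_fintype_card (α := Fin 4), Fintype.card_fin] at h
  have h4 : Nat.factorial 4 = 24 := by decide
  rw [h4] at h
  omega

set_option maxRecDepth 100000 in
theorem count3_alt4 :
    (Finset.univ.filter (fun c : alternatingGroup (Fin 4) => c ^ 3 = 1 ∧ c ≠ 1)).card = 8 := by
  decide +kernel

/-- abstract version of [STR24]. -/
theorem str24_abs {H : Type*} [Group H] [Finite H]
    (hUI : ∀ s t : H, orderOf s = 2 → orderOf t = 2 → s = t)
    (f : H →* alternatingGroup (Fin 4)) (hf : Function.Surjective f)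
    (hker : Nat.card f.ker = 2) :
    Set.ncard {P : Subgroup H | Nat.card P = 3} = 4 ∧
    ∀ P Q : Subgroup H, Nat.card P = 3 → Nat.card Q = 3 → P ≠ Q → P ⊔ Q = ⊤ := by
  obtain ⟨z, hz, hk, hc, heven⟩ := exists_kernel_involution f hker hUI
  constructor
  · have h := two_mul_ncard_eq hf hz hk hc (fun _ => True) (fun _ => True) (fun _ _ => Iff.rfl)
    have hset : {b : alternatingGroup (Fin 4) | orderOf b = 3 ∧ True} =
        ↑(Finset.univ.filter (fun c : alternatingGroup (Fin 4) => c ^ 3 = 1 ∧ c ≠ 1)) := by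
      ext b
      simp [orderOf_eq_prime_iff]
    rw [hset, Set.ncard_coe_finset, count3_alt4] at h
    have hset2 : {P : Subgroup H | Nat.card P = 3} =
        {Q : Subgroup H | Nat.card Q = 3 ∧ True} := by
      ext; simp
    rw [hset2]; omega
  · intro P Q hP hQ hne
    obtain ⟨x, ox, rfl⟩ := exists_gen_of_card3 P hP
    obtain ⟨y, oy, rfl⟩ := exists_gen_of_card3 Q hQ
    have ofx := orderOf_map_order3 hz hk ox
    have ofy := orderOf_map_order3 hz hk oy
    have h1 : f y ≠ f x := by
      intro h; exact hne (by rw [inj_order3 hz hk hc oy ox h])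
    have h2 : f y ≠ (f x)⁻¹ := by
      intro h
      have ox' : orderOf x⁻¹ = 3 := by rw [orderOf_inv]; exact ox
      have : y = x⁻¹ := inj_order3 hz hk hc oy ox' (by rw [h, map_inv])
      exact hne (by rw [this, zpowers_inv])
    have hbB : f x ∈ zpowers (f x) ⊔ zpowers (f y) :=
      (le_sup_left : zpowers (f x) ≤ _) (mem_zpowers _)
    have hcB : f y ∈ zpowers (f x) ⊔ zpowers (f y) :=
      (le_sup_right : zpowers (f y) ≤ _) (mem_zpowers _)
    obtain ⟨hn3, hn6⟩ := card_ne_of_two_order3 _ hbB hcB ofx ofy h1 h2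
    have hd12 : Nat.card ↥(zpowers (f x) ⊔ zpowers (f y)) ∣ 12 :=
      card_alt4 ▸ Subgroup.card_subgroup_dvd_card _
    have hd3 : 3 ∣ Nat.card ↥(zpowers (f x) ⊔ zpowers (f y)) :=
      ofx ▸ Subgroup.orderOf_dvd_natCard _ hbB
    have hB12 : Nat.card ↥(zpowers (f x) ⊔ zpowers (f y)) = 12 := by
      have hle : Nat.card ↥(zpowers (f x) ⊔ zpowers (f y)) ≤ 12 :=
        Nat.le_of_dvd (by norm_num) hd12
      generalize Nat.card ↥(zpowers (f x) ⊔ zpowers (f y)) = n at *
      interval_cases n <;> omega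
    have hmap : (zpowers x ⊔ zpowers y).map f = ⊤ := by
      rw [map_sup_zpowers]
      exact Subgroup.eq_top_of_card_eq _ (by rw [hB12, card_alt4])
    have hd : Nat.card ↥((zpowers x ⊔ zpowers y).map f) ∣ Nat.card ↥(zpowers x ⊔ zpowers y) :=
      Subgroup.card_map_dvd _ f
    have h2' : 2 ∣ Nat.card ↥(zpowers x ⊔ zpowers y) := by
      rw [hmap, Subgroup.card_top, card_alt4] at hd
      exact Dvd.dvd.trans (by norm_num) hd
    have hA := heven _ h2'
    rw [← Subgroup.comap_map_eq_self hA, hmap, Subgroup.comap_top]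

/-- [STR24] a line has exactly 4 points, and any two of them generate it. -/
theorem pkgStr24 : Cfsg.Agent.Lib.Helper51.Zass.PkgStr24.{u} := by
  intro G _ _ hUI L hL
  obtain ⟨f, hf, hker⟩ := hL
  have hUI' : ∀ s t : L, orderOf s = 2 → orderOf t = 2 → s = t := by
    intro s t hs ht
    apply Subtype.ext
    apply hUI
    · rw [Subgroup.orderOf_coe]; exact hs
    · rw [Subgroup.orderOf_coe]; exact ht
  obtain ⟨h1, h2⟩ := str24_abs hUI' f hf hker
  constructor
  · have e : {P : Subgroup G | Nat.card P = 3 ∧ P ≤ L} =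
        {P : Subgroup G | Nat.card P = 3 ∧ P ≤ L ∧ True} := by
      ext; simp
    rw [e, ncard_le_transfer L (fun _ => True)]
    have e2 : {P' : Subgroup L | Nat.card P' = 3 ∧ True} =
        {P' : Subgroup L | Nat.card P' = 3} := by
      ext; simp
    rw [e2]; exact h1
  · intro P Q hP hQ hPL hQL hne
    obtain ⟨P', rfl, hP'⟩ := exists_sub_of_le L hPL
    obtain ⟨Q', rfl, hQ'⟩ := exists_sub_of_le L hQL
    have hne' : P' ≠ Q' := by rintro rfl; exact hne rfl
    rw [← Subgroup.map_sup, h2 P' Q' (hP'.trans hP) (hQ'.trans hQ) hne', map_subtype_top']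

end Cfsg.Agent.Lib.Helper43.Zass
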